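import Cfsg.Agent.H777.Th3.ThEl

/-! # S5755, row `Th`: products of order 31 of two elements of order three, the kernel checks (helper23) -/

set_option autoImplicit false
set_option Elab.async false
set_option maxRecDepth 100000

namespace Cfsg.Agent.SP.NTh.Three

open Cfsg.Agent.Th.Words248 Cfsg.Agent.Th.Gen248 Cfsg.Agent.Th.Hom248 Cfsg.Agent.H777.Th3

/-- the packed matrix `x` is the image of `g` -/
def Rep (x : ℕ) (g : Cfsg.Spor.Th) : Prop := Ok x ∧ mat x = (rho g : Matrix (Fin 248) (Fin 248) (ZMod 3))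

theorem rep_el (w : Wd) : Rep (evN false w) (el w) := ⟨(evN_spec w).1.1, by rw [rho_el]; exact (evN_spec w).1.2⟩

theorem rep_inv (w : Wd) : Rep (evN true w) (el w)⁻¹ :=
  ⟨(evN_spec w).2.1, by rw [map_inv, rho_el]; exact (evN_spec w).2.2⟩

theorem Rep.mul {x y : ℕ} {g h : Cfsg.Spor.Th} (hx : Rep x g) (hy : Rep y h) :
    Rep (Cfsg.Agent.Th.Words248.mul x y) (g * h) :=
  ⟨(mul_spec hx.1 hy.1).1, by rw [(mul_spec hx.1 hy.1).2, hx.2, hy.2, map_mul, Units.val_mul]⟩

theorem Rep.eq {x y : ℕ} {g h : Cfsg.Spor.Th} (hx : Rep x g) (hy : Rep y h) (e : Nat.beq x y = true) : g = h := by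
  apply Cfsg.Agent.Th.Final.rho_injective
  apply Units.ext
  rw [← hx.2, ← hy.2, Nat.eq_of_beq_eq_true e]

theorem Rep.ne {x : ℕ} {g : Cfsg.Spor.Th} (hx : Rep x g) (e : Bool.not (Nat.beq x idm) = true) : g ≠ 1 := by
  rintro rfl
  have : x = idm := mat_injective hx.1 idm_spec.1 (by rw [hx.2, idm_spec.2, map_one, Units.val_one])
  rw [this] at e
  simp at e

theorem rep_at (a : At) : Rep (atN a) (el (atW a)) := by rw [← known a]; exact rep_el _

/-- five squarings -/
noncomputable def p32 (x : ℕ) : ℕ := force x fun a => force (Cfsg.Agent.Th.Words248.mul a a) fun b =>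
  force (Cfsg.Agent.Th.Words248.mul b b) fun c => force (Cfsg.Agent.Th.Words248.mul c c) fun d =>
    force (Cfsg.Agent.Th.Words248.mul d d) fun e => Cfsg.Agent.Th.Words248.mul e e

theorem Rep.pow31 {x : ℕ} {g : Cfsg.Spor.Th} (hx : Rep x g) (e : Nat.beq (p32 x) x = true) : g ^ 31 = 1 := by
  simp only [p32, force_eq] at e
  have h2 := hx.mul hx
  have h4 := h2.mul h2
  have h8 := h4.mul h4
  have h16 := h8.mul h8
  have := (h16.mul h16).eq hx e
  have e2 : g ^ 31 * g = 1 * g := by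
    rw [one_mul]
    refine Eq.trans ?_ this
    simp only [pow_succ, pow_zero, one_mul, mul_assoc]
  exact mul_right_cancel e2

/-- the packed vector `w` is the image of the first basis vector under `g` -/
def VR (g : Cfsg.Spor.Th) (w : ℕ) : Prop :=
  VOk w ∧ vec w = Matrix.vecMul (vec 1) (rho g : Matrix (Fin 248) (Fin 248) (ZMod 3))

theorem vok_one : VOk 1 := vok_of (by decide +kernel) (by decide +kernel) (by decide +kernel)

theorem vr_one : VR 1 1 := ⟨vok_one, by simp⟩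

theorem VR.act {g h : Cfsg.Spor.Th} {w x : ℕ} (hw : VR g w) (hx : Rep x h) : VR (g * h) (actV w x) :=
  ⟨(actV_spec hw.1 hx.1).1, by
    rw [(actV_spec hw.1 hx.1).2, hw.2, hx.2, Matrix.vecMul_vecMul, map_mul, Units.val_mul]⟩

theorem VR.ne {g : Cfsg.Spor.Th} {w : ℕ} (hw : VR g w) (e : Nat.beq w 1 = false) : g ≠ 1 := by
  rintro rfl
  have : w = 1 := vec_injective hw.1 vok_one (hw.2.trans vr_one.2.symm)
  rw [this] at e
  simp at e

/-- iteration -/
noncomputable def itr (f : ℕ → ℕ) (n v : ℕ) : ℕ :=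
  Nat.rec (motive := fun _ => ℕ → ℕ) (fun v => v) (fun _ ih v => force (f v) ih) n v

theorem itr_spec {f : ℕ → ℕ} {z : Cfsg.Spor.Th} (hf : ∀ g w, VR g w → VR (g * z) (f w)) (n : ℕ) {g : Cfsg.Spor.Th}
    {w : ℕ} (hw : VR g w) : VR (g * z ^ n) (itr f n w) := by
  induction n generalizing g w with
  | zero => simpa [itr] using hw
  | succ n ih =>
    have := ih (hf g w hw)
    rw [mul_assoc, ← pow_succ'] at this
    change VR _ (force (f w) _)
    rw [force_eq]
    exact this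

/-- `x ^ i * y ^ j` -/
noncomputable def act2 (x y i j v : ℕ) : ℕ := itr (fun w => actV w y) j (itr (fun w => actV w x) i v)

theorem act2_spec {x y : ℕ} {a b : Cfsg.Spor.Th} (hx : Rep x a) (hy : Rep y b) (i j : ℕ) {g : Cfsg.Spor.Th} {w : ℕ}
    (hw : VR g w) : VR (g * (a ^ i * b ^ j)) (act2 x y i j w) := by
  rw [← mul_assoc]
  exact itr_spec (fun _ _ h => h.act hy) j (itr_spec (fun _ _ h => h.act hx) i hw)

/-- the 31st power of `x ^ i * y ^ j * (x' ^ k * y' ^ l)` moves the first basis vector -/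
noncomputable def mv31 (x y x' y' i j k l : ℕ) : Bool :=
  Bool.not (Nat.beq (itr (fun w => act2 x' y' k l (act2 x y i j w)) 31 1) 1)

theorem mv31_spec {x y x' y' : ℕ} {a b a' b' : Cfsg.Spor.Th} (hx : Rep x a) (hy : Rep y b) (hx' : Rep x' a')
    (hy' : Rep y' b') {i j k l : ℕ} (h : mv31 x y x' y' i j k l = true) :
    (a ^ i * b ^ j * (a' ^ k * b' ^ l)) ^ 31 ≠ 1 := by
  have := itr_spec (f := fun w => act2 x' y' k l (act2 x y i j w)) (z := a ^ i * b ^ j * (a' ^ k * b' ^ l))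
    (fun g w hw => by rw [← mul_assoc]; exact act2_spec hx' hy' k l (act2_spec hx hy i j hw)) 31 vr_one
  rw [one_mul] at this
  exact this.ne (by simpa [mv31] using h)

/-- conjugation of packed matrices -/
noncomputable def cjN (w : Wd) (x : ℕ) : ℕ :=
  Cfsg.Agent.Th.Words248.mul (evN true w) (Cfsg.Agent.Th.Words248.mul x (evN false w))

theorem Rep.cj {x : ℕ} {g : Cfsg.Spor.Th} (hx : Rep x g) (w : Wd) : Rep (cjN w x) ((el w)⁻¹ * g * el w) := by
  rw [mul_assoc]; exact (rep_inv w).mul (hx.mul (rep_el w))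

/-- conjugators -/
def gA : Wd := wl [.S, .u, .b, .s, .U, .d, .u, .s]
/-- conjugators -/
def gB : Wd := wl [.s, .u, .b, .u]
/-- conjugators -/
def gC : Wd := wl [.s, .u, .d, .u]
/-- conjugators -/
def gW : Wd := wl [.s, .u, .b, .u, .s]

/-- `x * x ^ g` has order dividing 31, `x * (x ^ g) ^ 2` has not -/
noncomputable def ck1 (x : ℕ) (g : Wd) : Bool := force x fun x => force (cjN g x) fun y =>
  force (Cfsg.Agent.Th.Words248.mul x y) fun z =>
    Bool.and (Bool.and (Nat.beq (p32 z) z) (Bool.not (Nat.beq z idm))) (mv31 x x y y 1 0 2 0)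

theorem ck1_spec {x : ℕ} {a : Cfsg.Spor.Th} (hx : Rep x a) {g : Wd} (h : ck1 x g = true) :
    orderOf (a * ((el g)⁻¹ * a * el g)) = 31 ∧ (a * ((el g)⁻¹ * a * el g) ^ 2) ^ 31 ≠ 1 := by
  haveI : Fact (Nat.Prime 31) := ⟨by norm_num⟩
  simp only [ck1, force_eq, Bool.and_eq_true] at h
  refine ⟨orderOf_eq_prime ((hx.mul (hx.cj g)).pow31 h.1.1) ((hx.mul (hx.cj g)).ne h.1.2), ?_⟩
  simpa using mv31_spec hx hx (hx.cj g) (hx.cj g) h.2

theorem ckA : ck1 (atN .u4) gA = true := by decide +kernel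

theorem ckB : ck1 (atN .u1) gB = true := by decide +kernel

theorem ckC : ck1 (atN .u3) gC = true := by decide +kernel

/-- the pairs `(k, l)` -/
def l8 : List (ℕ × ℕ) := [(0, 1), (0, 2), (1, 0), (1, 1), (1, 2), (2, 0), (2, 1), (2, 2)]

/-- the products with `u1 ^ i * u2 ^ j` -/
noncomputable def ckW (i j : ℕ) (L : List (ℕ × ℕ)) : Bool := force (atN .u1) fun x => force (atN .u2) fun y =>
  force (cjN gW x) fun x' => force (cjN gW y) fun y' => L.all fun p => mv31 x y x' y' i j p.1 p.2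

theorem ckW_spec {i j : ℕ} {L : List (ℕ × ℕ)} (h : ckW i j L = true) {p : ℕ × ℕ} (hp : p ∈ L) :
    (thDat.u1 ^ i * thDat.u2 ^ j *
      (((el gW)⁻¹ * thDat.u1 * el gW) ^ p.1 * ((el gW)⁻¹ * thDat.u2 * el gW) ^ p.2)) ^ 31 ≠ 1 := by
  simp only [ckW, force_eq, List.all_eq_true] at h
  exact mv31_spec (rep_at .u1) (rep_at .u2) ((rep_at .u1).cj gW) ((rep_at .u2).cj gW) (h p hp)

theorem ckW01 : ckW 0 1 l8 = true := by decide +kernel

theorem ckW10 : ckW 1 0 l8 = true := by decide +kernel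

theorem ckW12 : ckW 1 2 l8 = true := by decide +kernel

theorem ckW11 : ckW 1 1 [(0, 1), (1, 0), (1, 1), (1, 2), (2, 0), (2, 1), (2, 2)] = true := by decide +kernel

/-- the product of order 31 -/
noncomputable def ckW' : Bool := force (atN .u1) fun x => force (atN .u2) fun y => force (cjN gW y) fun y' =>
  force (Cfsg.Agent.Th.Words248.mul (Cfsg.Agent.Th.Words248.mul x y) (Cfsg.Agent.Th.Words248.mul y' y')) fun z =>
    Bool.and (Nat.beq (p32 z) z) (Bool.not (Nat.beq z idm))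

theorem ckW'_true : ckW' = true := by decide +kernel

theorem W31 :
    orderOf (thDat.u1 * thDat.u2 * (((el gW)⁻¹ * thDat.u2 * el gW) * ((el gW)⁻¹ * thDat.u2 * el gW))) = 31 := by
  haveI : Fact (Nat.Prime 31) := ⟨by norm_num⟩
  have h := ckW'_true
  simp only [ckW', force_eq, Bool.and_eq_true] at h
  have r := ((rep_at .u1).mul (rep_at .u2)).mul (((rep_at .u2).cj gW).mul ((rep_at .u2).cj gW))
  exact orderOf_eq_prime (r.pow31 h.1) (r.ne h.2)

theorem m1_sq : em1 * em1 = 1 := by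
  have h : Nat.beq (Cfsg.Agent.Th.Words248.mul (atN .m1) (atN .m1)) (evN false .one) = true := by decide +kernel
  have := ((rep_at .m1).mul (rep_at .m1)).eq (rep_el .one) h
  rwa [el_one] at this

end Cfsg.Agent.SP.NTh.Three
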