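import Cfsg.Agent.SP.NTh.Three.Line
import Cfsg.Agent.SP.Mon.Iface

/-! # S5755, row `Th`: the 3-local box (helper23) -/

set_option autoImplicit false
set_option linter.style.haveILetI false
set_option synthInstance.maxHeartbeats 400000
set_option synthInstance.maxSize 2000

namespace Cfsg.Agent.SP.NTh.Three

open Subgroup Cfsg.Agent.SP Cfsg.Agent.H777.Th3 Cfsg.Agent.H777.Th3.Dat Cfsg.Agent.H502.TO Cfsg.Agent.SP.NTh

theorem EA.ord {V : Subgroup Th} (h : EA V) {x : Th} (hx : x ∈ V) (x1 : x ≠ 1) : orderOf x = 3 :=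
  haveI : Fact (Nat.Prime 3) := ⟨Nat.prime_three⟩
  orderOf_eq_prime (h.pow x hx) x1

/-- an invariant family of elements of `V` has two independent members -/
theorem exists_two {A V : Subgroup Th} (h : PA A) (hE : EA V) (hN : Nm A V) {y x : Th} (hx : x ∈ V) (x1 : x ≠ 1)
    (hy : IsConj y x) : ∃ x' ∈ V, IsConj y x' ∧ x' ≠ x ∧ x' ≠ x⁻¹ := by
  by_contra hn
  push Not at hn
  refine noPt h (hE.ord hx x1) fun a ha => ?_
  by_cases e : a * x * a⁻¹ = x
  · exact Or.inl e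
  · exact Or.inr (hn _ (hN a ha x hx) (hy.trans (isConj_iff.2 ⟨a, rfl⟩)) e)

/-- pure 3B subgroups -/
theorem pure_cases {A V : Subgroup Th} (h : PA A) (hE : EA V) (hN : Nm A V) (h0 : V ≠ ⊥) (hB : PureB V) :
    27 ≤ Nat.card V := by
  haveI := finTh
  haveI : Fact (Nat.Prime 3) := ⟨Nat.prime_three⟩
  obtain ⟨⟨x, hx⟩, x1⟩ := (ne_bot_iff_exists_ne_one).1 h0
  have x1' : x ≠ 1 := fun e => x1 (Subtype.ext e)
  obtain ⟨y, hy, hyB, yx, yx'⟩ := exists_two h hE hN hx x1' (hB x hx x1')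
  have h9 := (hE.ind hx hy x1' (ne_one_of oB hyB) yx yx').nine hx hy
  obtain ⟨k, hk⟩ := IsPGroup.iff_card.1 hE.isPGroup
  rw [hk] at h9 ⊢
  have h2 : 2 ≤ k := (Nat.pow_dvd_pow_iff_le_right (by norm_num)).1 (show 3 ^ 2 ∣ 3 ^ k from h9)
  rcases h2.eq_or_lt with rfl | h3
  · exact (noLine h hE hk hB hN).elim
  · exact Nat.pow_le_pow_right (n := 3) (by norm_num) (show 3 ≤ k from h3)

/-- the hyperplane of 3B-elements of `Vs` -/
def E0 : Subgroup Th where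
  carrier := {x | ∃ e, lam e = 0 ∧ x = thDat.vv e}
  one_mem' := ⟨0, rfl, thDat.vv_zero.symm⟩
  mul_mem' := by
    rintro _ _ ⟨e, he, rfl⟩ ⟨f, hf, rfl⟩
    exact ⟨e + f, by rw [lam_add, he, hf, add_zero], (thDat.vv_add e f).symm⟩
  inv_mem' := by
    rintro _ ⟨e, he, rfl⟩
    refine ⟨-e, ?_, (vv_neg e).symm⟩
    have := lam_add e (-e)
    rw [add_neg_cancel, he, zero_add] at this
    exact this.symm

theorem dec_lam : ∀ i j : ZMod 3, i ≠ 0 → j = 0 ∨ j + (i + i) = 0 ∨ j + i = 0 := by decide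

/-- minimal invariant -/
def Mn (A V : Subgroup Th) : Prop := ∀ W : Subgroup Th, W ≤ V → Nm A W → W = ⊥ ∨ W = V

theorem caseVs {A V : Subgroup Th} (h : PA A) (hE : EA V) (hN : Nm A V) (h0 : V ≠ ⊥) (hM : Mn A V) (hV : V ≤ thDat.Vs) :
    False := by
  have hB : ∀ v ∈ E0, v ≠ 1 → IsConj xB v := by
    rintro _ ⟨e, he, rfl⟩ h1
    exact isB_vv (by rintro rfl; exact h1 thDat.vv_zero) he
  rcases hM (V ⊓ E0) inf_le_left (fun a ha v hv => ⟨hN a ha v hv.1, by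
    by_cases v1 : v = 1
    · rw [v1, mul_one, mul_inv_cancel]; exact E0.one_mem
    obtain ⟨e, he⟩ := (thDat.mem_Vs).1 (hV (hN a ha v hv.1))
    exact ⟨e, lam_of_B (he ▸ (hB v hv.2 v1).trans (isConj_iff.2 ⟨a, rfl⟩)), he⟩⟩) with e | e
  · have k : ∀ f, thDat.vv f ∈ V → lam f = 0 → thDat.vv f = 1 := fun f hf hl =>
      mem_bot.1 (e ▸ (⟨hf, f, hl, rfl⟩ : thDat.vv f ∈ V ⊓ E0))
    obtain ⟨⟨x, hx⟩, x1⟩ := (ne_bot_iff_exists_ne_one).1 h0
    have x1' : x ≠ 1 := fun e => x1 (Subtype.ext e)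
    obtain ⟨y, hy, hyx, yx, yx'⟩ := exists_two h hE hN hx x1' (IsConj.refl x)
    obtain ⟨f, rfl⟩ := (thDat.mem_Vs).1 (hV hx)
    obtain ⟨g, rfl⟩ := (thDat.mem_Vs).1 (hV hy)
    rcases dec_lam (lam f) (lam g) (fun e => x1' (k f hx e)) with q | q | q
    · exact ne_one_of (hE.ord hx x1') hyx (k g hy q)
    · have := k (g + (f + f)) (by rw [vv_add, vv_add]; exact mul_mem hy (mul_mem hx hx)) (by rw [lam_add, lam_add, q])
      rw [vv_add, vv_add, ← pow_two, sq_eq_inv (hE.pow _ hx)] at this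
      exact yx (mul_inv_eq_one.1 this)
    · have := k (g + f) (by rw [vv_add]; exact mul_mem hy hx) (by rw [lam_add, q])
      rw [vv_add] at this
      exact yx' (eq_inv_of_mul_eq_one_left this)
  · have hB' : PureB V := fun v hv => hB v (e.ge hv).2
    exact noE h hN (pure_cases h hE hN h0 hB') hB' hV

theorem dec_beta : ∀ y : V3, Qf y = 0 → Qf (y + (2, 1, 2)) = 0 → y = 0 ∨ y = (2, 1, 2) ∨ y = (1, 2, 1) := by decide +kernel

theorem Qf_pure {V : Subgroup Th} (hB : PureB V) {e : V5} (he : thDat.uu e ∈ V) : Qf e.2.2 = 0 := by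
  by_cases e0 : e = 0
  · rw [e0]; rfl
  · exact Qf_of_B (hB _ he fun e1 => e0 (uu_injective th_u1_ne (e1.trans thDat.uu_zero.symm)))

theorem casePure {A V : Subgroup Th} (h : PA A) (hE : EA V) (hN : Nm A V) (h0 : V ≠ ⊥) (hB : PureB V) (hV : V ≤ thDat.U) :
    False := by
  have h27 := pure_cases h hE hN h0 hB
  by_cases hW : ∀ e, thDat.uu e ∈ V → e.2.2 = 0
  · refine noVb h hE hN h27 fun v hv => ?_
    obtain ⟨e, rfl⟩ := (thDat.mem_U).1 (hV hv)
    exact ⟨e, rfl, Or.inl (hW e hv)⟩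
  push Not at hW
  obtain ⟨e, he, e0⟩ := hW
  obtain ⟨i, j, k, hr⟩ := dec_reach _ e0
  rw [Qf_pure hB he] at hr
  obtain ⟨g, hg⟩ := actY_om i j k
  have k1 : ∃ f : V5, thDat.uu f ∈ cj V g ∧ f.2.2 = (2, 1, 2) := by
    rcases hr with hr | hr
    · obtain ⟨f, h1, h2⟩ := hg e
      exact ⟨f, h2 ▸ cj_mem he g, h1.trans hr⟩
    · obtain ⟨f, h1, h2⟩ := hg (-e)
      exact ⟨f, h2 ▸ cj_mem (by rw [uu_neg]; exact inv_mem he) g, h1.trans hr⟩
  obtain ⟨f, hf, hf2⟩ := k1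
  refine noVb (h.cj g) (hE.cj g) (hN.cj g) (by rwa [card_cj]) fun v hv => ?_
  obtain ⟨e1, h1⟩ := (thDat.mem_U).1 (hV (mem_cj.1 hv))
  obtain ⟨e2, -, h2⟩ := hg e1
  obtain rfl : v = thDat.uu e2 := by rw [← h2, ← h1]; group
  refine ⟨e2, rfl, dec_beta _ (Qf_pure (hB.cj g) hv) ?_⟩
  have := Qf_pure (hB.cj g) (e := e2 + f) (by rw [uu_add]; exact mul_mem hv hf)
  rwa [Prod.snd_add, Prod.snd_add, hf2] at this

theorem dec_Q2 : ∀ y : V3, y.2 = (0, 0) → Qf y ≠ 2 := by decide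

/-- two commuting elements of class 3C with product in class 3A -/
theorem card_CC {c d : Th} (hI : Ind c d) (hc : IsConj xC c) (hA : IsConj xA (c * d)) :
    Nat.card (centralizer ({c} : Set Th) ⊓ centralizer ({d} : Set Th) : Subgroup Th) ≤ 486 := by
  haveI := finTh
  haveI : Fact (Nat.Prime 3) := ⟨Nat.prime_three⟩
  haveI : Fact (Nat.Prime 5) := ⟨Nat.prime_five⟩
  have h1 := th_u1_ne
  set H : Subgroup Th := centralizer ({c} : Set Th) ⊓ centralizer ({d} : Set Th) with hH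
  have hm : ∀ {z}, z ∈ H → z * c = c * z ∧ z * d = d * z := fun hz =>
    ⟨mem_centralizer_singleton_iff.1 hz.1, mem_centralizer_singleton_iff.1 hz.2⟩
  have h9 : ∀ z ∈ H, 9 ∣ Nat.card (centralizer ({z} : Set Th)) := fun z hz =>
    hI.nine (mem_centralizer_singleton_iff.2 (hm hz).1.symm) (mem_centralizer_singleton_iff.2 (hm hz).2.symm)
  have hd : Nat.card H ∣ 174960 := by
    refine (card_dvd_of_le inf_le_left).trans ?_
    rw [← card_cent_isConj hc]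
    exact cC
  have nd : ∀ {p : ℕ}, ¬ p ∣ 174960 → ¬ p ∣ Nat.card H := fun hp e => hp (e.trans hd)
  have h5 : ¬ 5 ^ (0 + 1) ∣ Nat.card H := by
    intro h5
    obtain ⟨⟨s, hs⟩, ho⟩ := exists_prime_orderOf_dvd_card' (G := H) 5 h5
    rw [Subgroup.orderOf_mk] at ho
    have := h9 s hs
    rw [c5 ho] at this
    norm_num at this
  have h4 : ¬ 2 ^ (1 + 1) ∣ Nat.card H := by
    intro h4
    obtain ⟨F, hF, hc4⟩ := exists_sub Nat.prime_two h4
    have ho : ∀ u ∈ F, u ≠ 1 → orderOf u = 2 := by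
      intro u hu u1
      have h2 := orderOf_dvd_natCard (⟨u, hu⟩ : F)
      rw [hc4, Subgroup.orderOf_mk] at h2
      obtain ⟨i, hi, e⟩ := (Nat.dvd_prime_pow Nat.prime_two).1 h2
      interval_cases i
      · exact absurd (orderOf_eq_one_iff.1 e) u1
      · exact e
      · exact absurd (h9 u (hF hu)) (four_C e hc (hm (hF hu)).1)
    obtain ⟨u, hu, u1, -⟩ := exists_other (V := F) (by rw [hc4]; norm_num) 1
    obtain ⟨v, hv, v1, vu, -⟩ := exists_other (V := F) (by rw [hc4]; norm_num) u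
    exact not_four_C (Four.of_isConj ⟨u, v, ho u hu u1, ho v hv v1, vu.symm, comm_of_sq Nat.prime_two hc4 hu hv,
      (hm (hF hu)).1, (hm (hF hv)).1⟩ hc.symm)
  have h6 : ¬ 3 ^ (5 + 1) ∣ Nat.card H := by
    intro h6
    have hcd : c * d ∈ H := ⟨mem_centralizer_singleton_iff.2 (by rw [mul_assoc, ← hI.comm]),
      mem_centralizer_singleton_iff.2 (by rw [← mul_assoc, hI.comm])⟩
    obtain ⟨R, haR, hRH, hR, hc6⟩ := exists_big (zpowers_le_of_mem hcd) (IsPGroup.of_card (n := 1) (by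
      rw [Nat.card_zpowers, isConj_order hA, oA, pow_one])) h6
    obtain ⟨k, hk⟩ := isConj_iff.1 (isC_u3.symm.trans hc)
    obtain ⟨l, -, hl⟩ := sylow_conj (L := centralizer ({thDat.u3} : Set Th)) (A := cj R k) (fun y hy => by
        have := (hm (hRH (mem_cj.1 hy))).1
        rw [← hk] at this
        rw [mem_centralizer_singleton_iff]
        calc y * thDat.u3 = k⁻¹ * (k * y * k⁻¹ * (k * thDat.u3 * k⁻¹)) * k := by group
          _ = _ := by rw [this]; group) N_le_C3 (hR.comap_of_injective _ (MulAut.conj k).injective) (card_N h1)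
      (by rw [← card_cent_isConj isC_u3]; exact three_C)
    have hRN : cj (cj R k) l ≤ thDat.N := fun y hy => by simpa [mul_assoc] using hl _ (mem_cj.1 hy)
    have ha := cj_mem (cj_mem (haR (mem_zpowers _)) k) l
    have hA' : IsConj xA (l⁻¹ * (k⁻¹ * (c * d) * k) * l) := hA.trans ((isConj_of rfl).trans (isConj_of rfl)).symm
    have hcm : ∀ r ∈ cj (cj R k) l, r * (l⁻¹ * (k⁻¹ * (c * d) * k) * l) = l⁻¹ * (k⁻¹ * (c * d) * k) * l * r := by
      intro r hr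
      obtain ⟨e1, e2⟩ := hm (hRH (mem_cj.1 (mem_cj.1 hr)))
      calc _ = l⁻¹ * k⁻¹ * (k * (l * r * l⁻¹) * k⁻¹ * c * d) * k * l := by group
        _ = l⁻¹ * k⁻¹ * (c * (k * (l * r * l⁻¹) * k⁻¹ * d)) * k * l := by rw [e1]; group
        _ = _ := by rw [e2]; group
    generalize l⁻¹ * (k⁻¹ * (c * d) * k) * l = a at ha hA' hcm
    have haU : a ∈ thDat.U := by
      by_contra hn
      obtain ⟨t, -, ht⟩ := toVs h1 (hRN ha) hn
      exact not_A_Vs (ht a (hRN ha) rfl) (hA'.trans (isConj_of rfl).symm)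
    obtain ⟨e, rfl⟩ := (thDat.mem_U).1 haU
    have hU : cj (cj R k) l ≤ thDat.U := fun r hr => by
      obtain ⟨p, q, hpq⟩ := act_N (hRN hr)
      have e1 : T p q 0 0 e = e := uu_injective h1 (by rw [← hpq, mul_assoc, ← hcm r hr, inv_mul_cancel_left])
      by_cases e0 : (p, q) = (0, 0)
      · obtain ⟨rfl, rfl⟩ := Prod.mk.inj e0
        exact mem_U_of_act h1 (thDat.N_le_Sg (hRN hr)) (hpq.congr T_zero)
      · exact absurd (Qf_of_A hA') (dec_Q2 _ (T_fix45 p q e e0 e1))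
    have := card_le_of_le hU
    rw [card_cj, card_cj, card_U h1] at this
    exact absurd (hc6.trans this) (by norm_num)
  exact Nat.le_of_dvd (by norm_num)
    (dvd_of_parts (a := 1) (b := 5) (c := 0) (d := 0) (e := 0) (f := 0) (g := 0) (sub_dvd _) h4 h6 h5
      (nd (by norm_num)) (nd (by norm_num)) (nd (by norm_num)) (nd (by norm_num)))

theorem dec_BB : ∀ y z : V3, Qf y = 0 → Qf z = 0 → y ≠ 0 → z ≠ 0 → z ≠ y → z ≠ -y → Qf (y + z) = 1 ∨ Qf (y - z) = 1 := by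
  decide +kernel

theorem dec_AA : ∀ y z : V3, Qf y = 2 → Qf z = 2 → z ≠ y → z ≠ -y → Qf (y + z) = 1 ∨ Qf (y - z) = 1 ∨ Qf (y + z) = 0 ∨
    Qf (y - z) = 0 := by
  decide +kernel

theorem dec_CC : ∀ y z : V3, Qf y = 1 → Qf z = 1 → z ≠ y → z ≠ -y → Qf (y + z) = 2 := by decide +kernel

theorem card_QC : (Finset.univ.filter fun y : V3 => Qf y = 1).card = 6 := by decide +kernel

theorem caseMix {A V : Subgroup Th} (h : PA A) (hE : EA V) (hN : Nm A V) (hM : Mn A V) (hB : ¬ PureB V)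
    (hV : V ≤ thDat.U) : False := by
  haveI := finTh
  have h1 := th_u1_ne
  let NB : Th → Prop := fun v => IsConj xA v ∨ IsConj xC v
  have NBc : ∀ {v : Th} (a : Th), NB v → NB (a * v * a⁻¹) := fun a hv =>
    hv.imp (fun e => e.trans (isConj_iff.2 ⟨a, rfl⟩)) fun e => e.trans (isConj_iff.2 ⟨a, rfl⟩)
  have smul : ∀ {w w' : Th}, (w ∈ V ∧ ∀ v ∈ V, NB v → NB (w * v)) → (w' ∈ V ∧ ∀ v ∈ V, NB v → NB (w' * v)) →
      (w * w' ∈ V ∧ ∀ v ∈ V, NB v → NB (w * w' * v)) := fun hw hw' =>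
    ⟨mul_mem hw.1 hw'.1, fun v hv hn => by rw [mul_assoc]; exact hw.2 _ (mul_mem hw'.1 hv) (hw'.2 v hv hn)⟩
  let S : Subgroup Th :=
    { carrier := {w | w ∈ V ∧ ∀ v ∈ V, NB v → NB (w * v)}
      one_mem' := ⟨V.one_mem, fun v _ hv => by rwa [one_mul]⟩
      mul_mem' := smul
      inv_mem' := fun {w} hw => by
        rw [← sq_eq_inv (hE.pow w hw.1), pow_two]
        exact smul hw hw }
  have hS : S = ⊥ := by
    refine (hM S (fun _ hw => hw.1) fun a ha w hw => ⟨hN a ha w hw.1, fun v hv hn => ?_⟩).resolve_right fun e => ?_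
    · have := NBc a (hw.2 _ (hN _ (inv_mem ha) v hv) (NBc a⁻¹ hn))
      rwa [show a * (w * (a⁻¹ * v * a⁻¹⁻¹)) * a⁻¹ = a * w * a⁻¹ * v by group] at this
    · refine hB fun v hv v1 => ?_
      rcases cls3 (hE.ord hv v1) with q | q | q
      · have := (show v⁻¹ ∈ S from e ▸ inv_mem hv).2 v hv (Or.inl q)
        rw [inv_mul_cancel] at this
        exact (this.elim (ne_one_of oA · rfl) (ne_one_of oC · rfl)).elim
      · exact q
      · have := (show v⁻¹ ∈ S from e ▸ inv_mem hv).2 v hv (Or.inr q)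
        rw [inv_mul_cancel] at this
        exact (this.elim (ne_one_of oA · rfl) (ne_one_of oC · rfl)).elim
  have hW : ∀ e, thDat.uu e ∈ V → e.2.2 = 0 → e = 0 := by
    intro e he e0
    refine uu_injective h1 ((mem_bot.1 (hS ▸ (⟨he, fun v hv hn => ?_⟩ : thDat.uu e ∈ S))).trans thDat.uu_zero.symm)
    obtain ⟨f, rfl⟩ := (thDat.mem_U).1 (hV hv)
    have e1 : (e + f).2.2 = f.2.2 := by rw [Prod.snd_add, Prod.snd_add, e0, zero_add]
    rw [← uu_add]
    exact hn.imp (fun q => isA_uu (e1 ▸ Qf_of_A q)) fun q => isC_uu (e1 ▸ Qf_of_C q)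
  have hsub : ∀ {e f}, thDat.uu e ∈ V → thDat.uu f ∈ V → thDat.uu (e - f) ∈ V := fun he hf => by
    rw [sub_eq_add_neg, uu_add, uu_neg]; exact mul_mem he (inv_mem hf)
  have hadd : ∀ {e f}, thDat.uu e ∈ V → thDat.uu f ∈ V → thDat.uu (e + f) ∈ V := fun he hf => by
    rw [uu_add]; exact mul_mem he hf
  have inj : ∀ {e f}, thDat.uu e ∈ V → thDat.uu f ∈ V → e.2.2 = f.2.2 → e = f := fun he hf q =>
    sub_eq_zero.1 (hW _ (hsub he hf) (by rw [Prod.snd_sub, Prod.snd_sub, q, sub_self]))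
  have two : ∀ {y : Th} {e : V5}, thDat.uu e ∈ V → orderOf y = 3 → IsConj y (thDat.uu e) → ∃ f, thDat.uu f ∈ V ∧
      IsConj y (thDat.uu f) ∧ f.2.2 ≠ e.2.2 ∧ f.2.2 ≠ -e.2.2 := by
    intro y e he hy hc
    obtain ⟨x, hx, h2, h3, h4⟩ := exists_two h hE hN he (ne_one_of hy hc) hc
    obtain ⟨f, rfl⟩ := (thDat.mem_U).1 (hV hx)
    refine ⟨f, hx, h2, fun q => h3 (congrArg _ (inj hx he q)), fun q => h4 ?_⟩
    rw [← uu_neg]
    exact congrArg _ (inj hx (by rw [uu_neg]; exact inv_mem he) q)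
  have fromB : ∀ e, thDat.uu e ∈ V → e.2.2 ≠ 0 → Qf e.2.2 = 0 → ∃ e, thDat.uu e ∈ V ∧ Qf e.2.2 = 1 := by
    intro e he e0 q
    obtain ⟨f, hf, h2, h3, h4⟩ := two he oB (isB_uu (by rintro rfl; exact e0 rfl) q)
    rcases dec_BB _ _ q (Qf_of_B h2) e0 (fun q' => ne_one_of oB h2 (by rw [hW f hf q', uu_zero])) h3 h4 with q' | q'
    · exact ⟨_, hadd he hf, q'⟩
    · exact ⟨_, hsub he hf, q'⟩
  have hC : ∃ e, thDat.uu e ∈ V ∧ Qf e.2.2 = 1 := by
    unfold PureB at hB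
    push Not at hB
    obtain ⟨v, hv, v1, hvB⟩ := hB
    obtain ⟨e, rfl⟩ := (thDat.mem_U).1 (hV hv)
    rcases cls3 (hE.ord hv v1) with q | q | q
    · obtain ⟨f, hf, h2, h3, h4⟩ := two hv oA q
      rcases dec_AA _ _ (Qf_of_A q) (Qf_of_A h2) h3 h4 with q' | q' | q' | q'
      · exact ⟨_, hadd hv hf, q'⟩
      · exact ⟨_, hsub hv hf, q'⟩
      · exact fromB _ (hadd hv hf) (fun e0 => h4 (eq_neg_of_add_eq_zero_right e0)) q'
      · exact fromB _ (hsub hv hf) (fun e0 => h3 (sub_eq_zero.1 e0).symm) q'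
    · exact absurd q hvB
    · exact ⟨e, hv, Qf_of_C q⟩
  obtain ⟨e, he, q⟩ := hC
  have hc := isC_uu q
  obtain ⟨f, hf, hd, h3, h4⟩ := two he oC hc
  have hI := hE.ind he hf (ne_one_of oC hc) (ne_one_of oC hd) (fun q' => h3 (by rw [uu_injective h1 q']))
    fun q' => h4 (by rw [uu_injective h1 (q'.trans (thDat.uu_neg e).symm)]; rfl)
  have hH := card_CC hI hc (by rw [← uu_add]; exact isA_uu (dec_CC _ _ q (Qf_of_C hd) h3 h4))
  have hX : {v | v ∈ V ∧ IsConj xC v}.ncard ≤ 6 := by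
    have e1 : {v | v ∈ V ∧ IsConj xC v} ⊆ thDat.uu '' {e | thDat.uu e ∈ V ∧ Qf e.2.2 = 1} := fun v hv => by
      obtain ⟨g, rfl⟩ := (thDat.mem_U).1 (hV hv.1)
      exact ⟨g, ⟨hv.1, Qf_of_C hv.2⟩, rfl⟩
    refine (Set.ncard_le_ncard e1).trans ((Set.ncard_image_le).trans ?_)
    rw [← card_QC, ← Set.ncard_coe_finset]
    exact Set.ncard_le_ncard_of_injOn (fun e => e.2.2) (fun e he => by simpa using he.2) fun a ha b hb q => inj ha.1 hb.1 q
  have k1 := NegS.card_le_of_conj (A := A) (X := {v | v ∈ V ∧ IsConj xC v}) (x := thDat.uu e) fun a ha =>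
    ⟨hN a ha _ he, hc.trans (isConj_iff.2 ⟨a, rfl⟩)⟩
  have k2 := NegS.card_le_of_conj (A := A ⊓ centralizer {thDat.uu e}) (X := {v | v ∈ V ∧ IsConj xC v}) (x := thDat.uu f)
    fun a ha => ⟨hN a ha.1 _ hf, hd.trans (isConj_iff.2 ⟨a, rfl⟩)⟩
  have k3 := (card_le_of_le (show (A ⊓ centralizer {thDat.uu e}) ⊓ centralizer {thDat.uu f} ≤
    centralizer {thDat.uu e} ⊓ centralizer {thDat.uu f} from fun a ha => ⟨ha.1.2, ha.2⟩)).trans hH
  have k4 : Nat.card A ≤ 6 * (6 * 486) := k1.trans (Nat.mul_le_mul hX (k2.trans (Nat.mul_le_mul hX k3)))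
  have k5 : ∀ r, nOrd A r ≤ 6 * (6 * 486) := fun r => (ncard_le_card_subgroup fun _ hx => hx.1).trans k4
  exact kill' h (k4.trans (by norm_num)) ((k5 2).trans (by norm_num)) ((k5 3).trans (by norm_num))

/-- **no pair lies in a 3-local subgroup** -/
theorem not_inLoc {A B : Subgroup Th} (h : IsPair A B) : ¬ InLoc 3 A := by
  haveI := finTh
  rintro ⟨V₀, h0, hp, hA⟩
  obtain ⟨V₁, -, h₁⟩ := Mon.exists_minInv Nat.prime_three h0 hp fun a ha v hv => (mem_normalizer_iff.1 (hA ha) v).1 hv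
  have hE : EA V₁ := ⟨h₁.pow, h₁.comm⟩
  obtain ⟨g, hg⟩ := hE.loc
  have hne : cj V₁ g ≠ ⊥ := fun e => h₁.ne_bot (by
    rw [← card_eq_one, ← card_cj V₁ g, e, card_bot])
  obtain ⟨V, hV, h₂⟩ := Mon.exists_minInv Nat.prime_three hne (hE.cj g).isPGroup (Nm.cj h₁.norm g)
  have hP : PA (cj A g) := PA.cj ⟨B, h⟩ g
  have hE' : EA V := ⟨h₂.pow, h₂.comm⟩
  rcases hg with hg | hg
  · have hU : V ≤ thDat.U := fun v hv => by simpa [mul_assoc] using hg _ (mem_cj.1 (hV hv))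
    by_cases hB : PureB V
    · exact casePure hP hE' h₂.norm h₂.ne_bot hB hU
    · exact caseMix hP hE' h₂.norm h₂.min hB hU
  · exact caseVs hP hE' h₂.norm h₂.ne_bot h₂.min fun v hv => by simpa [mul_assoc] using hg _ (mem_cj.1 (hV hv))

/-- **the 3-local box** -/
theorem box3 : Box3 := fun _ _ _ h _ => not_inLoc h.pair

end Cfsg.Agent.SP.NTh.Three
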